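import Mathlib
import Cfsg.Agent.Helper1.NilPerm

set_option autoImplicit false

namespace Cfsg.Agent.Helper3

/-- In a finite nilpotent group, the Sylow `2`-subgroup has a complement of odd order that
commutes with it elementwise. -/
theorem nil_two_complement {G : Type} [Group G] [Finite G] (hG : Group.IsNilpotent G)
    (P : Sylow 2 G) :
    ∃ Q : Subgroup G, Odd (Nat.card Q) ∧ (∀ x ∈ (P : Subgroup G), ∀ y ∈ Q, x * y = y * x) ∧
      Nat.card G = Nat.card P * Nat.card Q := by
  have hnorm := ((Group.isNilpotent_of_finite_tfae (G := G)).out 0 3).mp hG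
  haveI hPn : (P : Subgroup G).Normal := hnorm 2 inferInstance P
  have htop := Cfsg.Agent.Helper1.nilperm_sylow_sup_centralizer hG 2 P
  obtain ⟨D, hD⟩ : ∃ D : Subgroup G, D = Subgroup.centralizer ((P : Subgroup G) : Set G) :=
    ⟨_, rfl⟩
  rw [← hD] at htop
  haveI hZn : ((P : Subgroup G).subgroupOf D).Normal := inferInstance
  have hidx : ((P : Subgroup G).subgroupOf D).index = (P : Subgroup G).index := by
    show (P : Subgroup G).relIndex D = _
    rw [← Subgroup.relIndex_sup_left (K := (P : Subgroup G)) (H := D), htop,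
      Subgroup.relIndex_top_right]
  have hodd : Odd (P : Subgroup G).index := by
    rw [← Nat.not_even_iff_odd, even_iff_two_dvd]
    exact P.not_dvd_index
  have hZp : IsPGroup 2 ↥((P : Subgroup G).subgroupOf D) :=
    P.isPGroup'.comap_subtype (K := D)
  obtain ⟨k, hk⟩ := (IsPGroup.iff_card).mp hZp
  have hcop : Nat.Coprime (Nat.card ↥((P : Subgroup G).subgroupOf D))
      ((P : Subgroup G).subgroupOf D).index := by
    rw [hk, hidx]
    exact Nat.Coprime.pow_left k (Nat.coprime_two_left.mpr hodd)
  obtain ⟨H, hH⟩ := Subgroup.exists_right_complement'_of_coprime hcop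
  have hHcard : Nat.card H = (P : Subgroup G).index := by
    rw [← hidx]
    exact (hH.symm.index_eq_card).symm
  refine ⟨H.map D.subtype, ?_, ?_, ?_⟩
  · rw [Subgroup.card_map_of_injective D.subtype_injective, hHcard]
    exact hodd
  · intro x hx y hy
    obtain ⟨d, hd, rfl⟩ := Subgroup.mem_map.mp hy
    have hdD : (d : G) ∈ Subgroup.centralizer ((P : Subgroup G) : Set G) := by
      rw [← hD]
      exact d.2
    exact Subgroup.mem_centralizer_iff.mp hdD x hx
  · rw [Subgroup.card_map_of_injective D.subtype_injective, hHcard]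
    exact (Subgroup.card_mul_index (P : Subgroup G)).symm

end Cfsg.Agent.Helper3
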